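import Mathlib
import Cfsg.Agent.Eq.Def_SolvableStructure
import Cfsg.Agent.Solvable.Hall
import Cfsg.Agent.Solvable.CoprimeIndex
import Cfsg.Agent.Fitting.Join

/-! Hall complement systems and system normalizers of finite solvable groups. -/

set_option maxHeartbeats 800000

namespace CfsgLib.Solvable

open Subgroup
open scoped Pointwise

variable {G : Type*} [Group G] [Finite G]

/-- An element of order prime to `p` with a `p`-power power in `H` lies in `H`. -/
theorem mem_of_pow_prime_pow_mem {p k : ℕ} {x : G} {H : Subgroup G}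
    (hx : (orderOf x).Coprime p) (h : x ^ p ^ k ∈ H) : x ∈ H := by
  obtain ⟨m, hm⟩ := exists_pow_eq_self_of_coprime (Nat.Coprime.pow_left k hx.symm)
  rw [← hm]
  exact pow_mem h m

/-- A subgroup of `p`-power relative index in a normalising overgroup contains its `p'`-elements. -/
theorem mem_of_normalizes_of_relIndex {p : ℕ} (hp : p.Prime) {U H : Subgroup G} {k : ℕ}
    (hUN : U ≤ Subgroup.normalizer (H : Set G)) (hk : H.relIndex U ∣ p ^ k) {x : G} (hxU : x ∈ U)
    (hx : (orderOf x).Coprime p) : x ∈ H := by
  haveI : (H.subgroupOf U).Normal := Subgroup.normal_subgroupOf_iff_le_normalizer_inf.2 (by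
    rintro y hy
    rw [Subgroup.mem_normalizer_iff]
    intro z
    have hyN := Subgroup.mem_normalizer_iff.1 (hUN hy) z
    show z ∈ H ⊓ U ↔ y * z * y⁻¹ ∈ H ⊓ U
    simp only [Subgroup.mem_inf, U.mul_mem_cancel_right (inv_mem hy), U.mul_mem_cancel_left hy, hyN])
  obtain ⟨j, -, hj⟩ := (Nat.dvd_prime_pow hp).1 hk
  have h := Subgroup.pow_index_mem (H.subgroupOf U) ⟨x, hxU⟩
  change x ^ H.relIndex U ∈ H at h
  rw [hj] at h
  exact mem_of_pow_prime_pow_mem hx h

/-- In a finite nilpotent group, a subgroup of `p`-power index contains the `p'`-elements. -/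
theorem mem_of_nilpotent_of_relIndex {p : ℕ} (hp : p.Prime) {U H : Subgroup G} {k : ℕ}
    (hU : Group.IsNilpotent U) (hk : H.relIndex U ∣ p ^ k) {x : G} (hxU : x ∈ U)
    (hx : (orderOf x).Coprime p) : x ∈ H := by
  haveI := hU
  obtain ⟨j, -, hj⟩ := (Nat.dvd_prime_pow hp).1 hk
  have h := CfsgLib.Fitting.pow_index_mem_of_isSubnormal
    (CfsgLib.Fitting.isSubnormal_of_isNilpotent (H.subgroupOf U)) ⟨x, hxU⟩
  change x ^ H.relIndex U ∈ H at h
  rw [hj] at h
  exact mem_of_pow_prime_pow_mem hx h

theorem complementSystem_not_dvd {K : Nat.Primes → Subgroup G} (hK : Cfsg.IsComplementSystem K)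
    (p : Nat.Primes) : ¬ (p : ℕ) ∣ Nat.card (K p) := by
  intro hd
  have h1 := (K p).card_mul_index
  rw [hK p] at h1
  have h2 : (p : ℕ) ^ ((Nat.card G).factorization p + 1) ∣ Nat.card G := by
    have h3 := Nat.mul_dvd_mul_right hd ((p : ℕ) ^ (Nat.card G).factorization p)
    rwa [h1, ← pow_succ'] at h3
  have := (p.2.pow_dvd_iff_le_factorization Nat.card_pos.ne').1 h2
  omega

theorem complementSystem_card {K : Nat.Primes → Subgroup G} (hK : Cfsg.IsComplementSystem K)
    (p : Nat.Primes) : Nat.card (K p) = Nat.card G / (p : ℕ) ^ (Nat.card G).factorization p := by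
  have h1 := (K p).card_mul_index
  rw [hK p] at h1
  exact (Nat.div_eq_of_eq_mul_left (pow_pos p.2.pos _) h1.symm).symm

theorem mem_complement_of_normalizes {K : Nat.Primes → Subgroup G} (hK : Cfsg.IsComplementSystem K)
    (p : Nat.Primes) {x : G} (hxN : x ∈ Subgroup.normalizer (K p : Set G))
    (hx : (orderOf x).Coprime p) : x ∈ K p :=
  mem_of_normalizes_of_relIndex p.2 le_rfl
    (hK p ▸ Subgroup.relIndex_dvd_index_of_le Subgroup.le_normalizer) hxN hx

/-- Complement systems exist; given `p'`-subgroups extend to one. -/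
theorem exists_complementSystem_ge [Group.IsSolvable G] (X : Nat.Primes → Subgroup G)
    (hX : ∀ p : Nat.Primes, ¬ (p : ℕ) ∣ Nat.card (X p)) :
    ∃ K : Nat.Primes → Subgroup G, Cfsg.IsComplementSystem K ∧ ∀ p, X p ≤ K p := by
  have h : ∀ p : Nat.Primes, ∃ H : Subgroup G,
      H.index = (p : ℕ) ^ (Nat.card G).factorization p ∧ X p ≤ H := by
    intro p
    have hG := (Nat.ordProj_mul_ordCompl_eq_self (Nat.card G) p).symm
    rw [mul_comm] at hG
    obtain ⟨H, hH, hle⟩ := exists_ge_card_eq_of_coprime _ _ hG
      ((Nat.coprime_ordCompl p.2 Nat.card_pos.ne').symm.pow_right _) (X p)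
      ((p.2.coprime_iff_not_dvd.2 (hX p)).symm.pow_right _)
    refine ⟨H, ?_, hle⟩
    have h1 := H.card_mul_index
    rw [hH] at h1
    conv_rhs at h1 => rw [hG]
    exact Nat.eq_of_mul_eq_mul_left (Nat.ordCompl_pos _ Nat.card_pos.ne') h1
  choose K hK hKX using h
  exact ⟨K, hK, hKX⟩

theorem exists_complementSystem [Group.IsSolvable G] :
    ∃ K : Nat.Primes → Subgroup G, Cfsg.IsComplementSystem K := by
  obtain ⟨K, hK, -⟩ := exists_complementSystem_ge (G := G) (fun _ => ⊥)
    fun p => by rw [Subgroup.card_bot]; exact p.2.not_dvd_one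
  exact ⟨K, hK⟩

/-- Complement systems move under conjugation. -/
theorem complementSystem_conj {K : Nat.Primes → Subgroup G} (hK : Cfsg.IsComplementSystem K) (g : G) :
    Cfsg.IsComplementSystem fun p => MulAut.conj g • K p := fun p => by
  show (MulAut.conj g • K p).index = _
  rw [conj_smul_eq_map, Subgroup.index_map_of_bijective (MulAut.conj g).bijective]
  exact hK p

theorem mem_systemNormalizer {K : Nat.Primes → Subgroup G} {x : G} :
    x ∈ Cfsg.systemNormalizer K ↔ ∀ p : Nat.Primes, MulAut.conj x • K p = K p := by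
  simp only [Cfsg.systemNormalizer, Subgroup.mem_iInf, Subgroup.mem_normalizer_iff_map_conj_eq]
  rfl

theorem systemNormalizer_conj (K : Nat.Primes → Subgroup G) (g : G) :
    Cfsg.systemNormalizer (fun p => MulAut.conj g • K p) = MulAut.conj g • Cfsg.systemNormalizer K := by
  ext x
  rw [mem_systemNormalizer, mem_conj_smul_iff, mem_systemNormalizer]
  refine forall_congr' fun p => ?_
  rw [map_mul, map_mul, map_inv, mul_smul, mul_smul]
  exact ⟨fun h => by rw [h, inv_smul_smul], fun h => by rwa [inv_smul_eq_iff] at h⟩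

theorem complementSystem_eq_top {K : Nat.Primes → Subgroup G} (hK : Cfsg.IsComplementSystem K)
    {p : Nat.Primes} (hp : ¬ (p : ℕ) ∣ Nat.card G) : K p = ⊤ := by
  rw [← Subgroup.index_eq_one, hK p, Nat.factorization_eq_zero_of_not_dvd hp, pow_zero]

private theorem finite_primes : ∃ s : Finset Nat.Primes, ∀ p : Nat.Primes, (p : ℕ) ∣ Nat.card G → p ∈ s :=
  ⟨(Nat.card G).primeFactors.subtype Nat.Prime, fun p hp =>
    Finset.mem_subtype.2 (Nat.mem_primeFactors.2 ⟨p.2, hp, Nat.card_pos.ne'⟩)⟩

/-- Two complement systems are conjugate. -/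
theorem exists_conj_complementSystem [Group.IsSolvable G] {K L : Nat.Primes → Subgroup G}
    (hK : Cfsg.IsComplementSystem K) (hL : Cfsg.IsComplementSystem L) :
    ∃ g : G, ∀ p : Nat.Primes, MulAut.conj g • K p = L p := by
  obtain ⟨s, hs⟩ := finite_primes (G := G)
  obtain ⟨g, -, hg⟩ := exists_simultaneous_conj ⊤ K L s
    (fun i _ j _ hij => by
      have hd : ∀ q : Nat.Primes, (Subgroup.normalizer (L q : Set G)).relIndex ⊤ ∣
          (q : ℕ) ^ (Nat.card G).factorization q := fun q => by
        rw [Subgroup.relIndex_top_right, ← hL q]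
        exact Subgroup.index_dvd_of_le Subgroup.le_normalizer
      exact ((Nat.Coprime.pow _ _ ((Nat.coprime_primes i.2 j.2).2 fun e => hij (Subtype.ext e))).coprime_dvd_left
        (hd i)).coprime_dvd_right (hd j))
    (fun i _ => by
      have hcop : (Nat.card (K i)).Coprime (K i).index := by
        rw [hK i]
        exact ((i.2.coprime_iff_not_dvd.2 (complementSystem_not_dvd hK i)).symm).pow_right _
      obtain ⟨g, hg⟩ := exists_conj_eq_of_hall (K i) (L i) hcop
        (by rw [complementSystem_card hK, complementSystem_card hL])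
      exact ⟨g, Subgroup.mem_top g, hg⟩)
  refine ⟨g, fun p => ?_⟩
  by_cases hp : (p : ℕ) ∣ Nat.card G
  · exact hg p (hs p hp)
  · rw [complementSystem_eq_top hK hp, complementSystem_eq_top hL hp]
    exact conj_smul_le_of_mem_normal g

/-- The image of a complement system in a quotient. -/
theorem complementSystem_map {K : Nat.Primes → Subgroup G} (hK : Cfsg.IsComplementSystem K)
    (N : Subgroup G) [N.Normal] :
    Cfsg.IsComplementSystem fun p => (K p).map (QuotientGroup.mk' N) := by
  intro p
  show ((K p).map (QuotientGroup.mk' N)).index = _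
  have hd : ((K p).map (QuotientGroup.mk' N)).index ∣ (p : ℕ) ^ (Nat.card G).factorization p :=
    hK p ▸ (K p).index_map_dvd (QuotientGroup.mk'_surjective N)
  obtain ⟨j, -, hj⟩ := (Nat.dvd_prime_pow p.2).1 hd
  rw [hj]
  congr 1
  have hnd : ¬ (p : ℕ) ∣ Nat.card ((K p).map (QuotientGroup.mk' N)) := fun h =>
    complementSystem_not_dvd hK p (h.trans ((K p).card_map_dvd _))
  have h1 := ((K p).map (QuotientGroup.mk' N)).card_mul_index
  rw [hj] at h1
  rw [← h1, Nat.factorization_mul Nat.card_pos.ne' (pow_pos p.2.pos _).ne', Finsupp.add_apply,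
    Nat.factorization_eq_zero_of_not_dvd hnd, p.2.factorization_pow, Finsupp.single_eq_same, zero_add]

/-- Relative index in a normal subgroup divides the index. -/
theorem relIndex_dvd_index_right (N M : Subgroup G) [N.Normal] : M.relIndex N ∣ M.index :=
  CfsgLib.Fitting.relIndex_dvd_index' N M

/-- System normalizers are preserved by homomorphic images. -/
theorem systemNormalizer_map [Group.IsSolvable G] {K : Nat.Primes → Subgroup G}
    (hK : Cfsg.IsComplementSystem K) (N : Subgroup G) [N.Normal] :
    Cfsg.systemNormalizer (fun p => (K p).map (QuotientGroup.mk' N)) =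
      (Cfsg.systemNormalizer K).map (QuotientGroup.mk' N) := by
  set f := QuotientGroup.mk' N
  apply le_antisymm
  · intro x hx
    obtain ⟨g, rfl⟩ := QuotientGroup.mk'_surjective N x
    rw [mem_systemNormalizer] at hx
    obtain ⟨s, hs⟩ := finite_primes (G := G)
    obtain ⟨n, hn, hn'⟩ := exists_simultaneous_conj N (fun p => MulAut.conj g • K p) K s
      (fun i _ j _ hij => by
        have hd : ∀ q : Nat.Primes, (Subgroup.normalizer (K q : Set G)).relIndex N ∣
            (q : ℕ) ^ (Nat.card G).factorization q := fun q =>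
          hK q ▸ (relIndex_dvd_index_right N _).trans (Subgroup.index_dvd_of_le Subgroup.le_normalizer)
        exact ((Nat.Coprime.pow _ _ ((Nat.coprime_primes i.2 j.2).2 fun e => hij (Subtype.ext e))).coprime_dvd_left
          (hd i)).coprime_dvd_right (hd j))
      (fun p _ => by
        set V := K p ⊔ N
        have hle : MulAut.conj g • K p ≤ V := by
          have h1 : (MulAut.conj g • K p).map f ≤ (K p).map f := le_of_eq (by rw [map_conj_smul]; exact hx p)
          have h2 := Subgroup.map_le_iff_le_comap.1 h1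
          rwa [Subgroup.comap_map_eq, QuotientGroup.ker_mk'] at h2
        have hKV : K p ≤ V := le_sup_left
        have hc1 := Nat.card_congr (Subgroup.subgroupOfEquivOfLe hle).toEquiv
        have hc2 := Nat.card_congr (Subgroup.subgroupOfEquivOfLe hKV).toEquiv
        obtain ⟨v, hv⟩ := exists_conj_eq_of_hall ((MulAut.conj g • K p).subgroupOf V) ((K p).subgroupOf V)
          (by
            rw [hc1, card_conj_smul]
            refine (((p.2.coprime_iff_not_dvd.2 (complementSystem_not_dvd hK p)).symm).pow_right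
              ((Nat.card G).factorization p)).coprime_dvd_right ?_
            show (MulAut.conj g • K p).relIndex V ∣ _
            rw [← hK p]
            refine (Subgroup.relIndex_dvd_index_of_le hle).trans (dvd_of_eq ?_)
            rw [conj_smul_eq_map, Subgroup.index_map_of_bijective (MulAut.conj g).bijective])
          (by rw [hc1, hc2, card_conj_smul])
        have hv' := conj_eq_of_subgroupOf hle hKV v hv
        have hvV : (v : G) ∈ K p ⊔ N := v.2
        rw [← SetLike.mem_coe, Subgroup.mul_normal] at hvV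
        obtain ⟨k, hk, n, hn, e⟩ := Set.mem_mul.1 hvV
        refine ⟨n, hn, ?_⟩
        rw [← e, map_mul, mul_smul, smul_eq_iff_eq_inv_smul, ← map_inv] at hv'
        rw [hv']
        exact Subgroup.mem_normalizer_iff_map_conj_eq.1 (Subgroup.le_normalizer (inv_mem hk)))
    refine ⟨n * g, ?_, ?_⟩
    · show n * g ∈ Cfsg.systemNormalizer K
      rw [mem_systemNormalizer]
      intro p
      by_cases hp : (p : ℕ) ∣ Nat.card G
      · rw [map_mul, mul_smul]; exact hn' p (hs p hp)
      · rw [complementSystem_eq_top hK hp]; exact conj_smul_le_of_mem_normal _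
    · show f (n * g) = f g
      rw [map_mul, show f n = 1 from (QuotientGroup.eq_one_iff n).2 hn, one_mul]
  · rintro _ ⟨g, hg, rfl⟩
    rw [mem_systemNormalizer]
    intro p
    rw [← map_conj_smul, mem_systemNormalizer.1 hg p]

/-- Hall complements in a nilpotent group are normal. -/
theorem systemNormalizer_eq_top_of_nilpotent [Group.IsNilpotent G] {K : Nat.Primes → Subgroup G}
    (hK : Cfsg.IsComplementSystem K) : Cfsg.systemNormalizer K = ⊤ := by
  rw [eq_top_iff]
  intro x _
  rw [mem_systemNormalizer]
  intro p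
  refine Subgroup.eq_of_le_of_card_ge ?_ (le_of_eq (card_conj_smul x (K p)).symm)
  intro y hy
  rw [mem_conj_smul_iff] at hy
  have ho : (orderOf y).Coprime p := by
    have h1 : orderOf (x⁻¹ * y * x) = orderOf y := by
      rw [show x⁻¹ * y * x = MulAut.conj x⁻¹ y by simp, MulEquiv.orderOf_eq]
    rw [← h1]
    exact (p.2.coprime_iff_not_dvd.2 fun h =>
      complementSystem_not_dvd hK p (h.trans ((K p).orderOf_dvd_natCard hy))).symm
  exact mem_of_nilpotent_of_relIndex p.2 (U := ⊤)
    (Group.nilpotent_of_mulEquiv (Subgroup.topEquiv (G := G)).symm)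
    (by rw [Subgroup.relIndex_top_right, hK p]) (Subgroup.mem_top y) ho

end CfsgLib.Solvable
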