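import Mathlib
import Cfsg.Agent.Eq.Def_SolvableStructure
import Cfsg.Agent.Solvable.ComplementSystem

/-! Carter subgroups of finite solvable groups, and their relation with system normalizers. -/

set_option maxHeartbeats 800000

namespace CfsgLib.Solvable

open Subgroup
open scoped Pointwise

variable {G : Type*} [Group G] [Finite G]

theorem normalizer_conj_smul (g : G) (H : Subgroup G) :
    Subgroup.normalizer ((MulAut.conj g • H : Subgroup G) : Set G) =
      MulAut.conj g • Subgroup.normalizer (H : Set G) := by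
  rw [conj_smul_eq_map, conj_smul_eq_map]
  exact (Subgroup.map_equiv_normalizer_eq H (MulAut.conj g)).symm

theorem le_normalizer_of_forall_conj_mem {U H : Subgroup G}
    (h : ∀ x ∈ U, ∀ y ∈ H, x * y * x⁻¹ ∈ H) : U ≤ Subgroup.normalizer (H : Set G) := by
  intro x hx
  rw [Subgroup.mem_normalizer_iff]
  intro y
  refine ⟨h x hx y, fun hy => ?_⟩
  have h1 := h x⁻¹ (inv_mem hx) _ hy
  rwa [inv_inv, mul_assoc, mul_assoc, inv_mul_cancel, mul_one, inv_mul_cancel_left] at h1

theorem orderOf_conj (x y : G) : orderOf (x * y * x⁻¹) = orderOf y :=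
  (MulAut.conj x).orderOf_eq y

theorem isNilpotent_map_subgroup {G' : Type*} [Group G'] (C : Subgroup G) (f : G →* G')
    (hC : Group.IsNilpotent C) : Group.IsNilpotent ↥(C.map f) :=
  haveI := hC
  Group.nilpotent_of_surjective (f.subgroupMap C) (f.subgroupMap_surjective C)

theorem isCarter_top [Group.IsNilpotent G] : Cfsg.IsCarterSubgroup (⊤ : Subgroup G) :=
  ⟨Group.nilpotent_of_mulEquiv (Subgroup.topEquiv (G := G)).symm, Subgroup.normalizer_eq_top _⟩

theorem carter_eq_top [Group.IsNilpotent G] {C : Subgroup G} (hC : Cfsg.IsCarterSubgroup C) :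
    C = ⊤ :=
  normalizerCondition_iff_only_full_group_self_normalizing.1
    Group.normalizerCondition_of_isNilpotent C hC.2

theorem isCarter_subgroupOf {C L : Subgroup G} (hC : Cfsg.IsCarterSubgroup C) (h : C ≤ L) :
    Cfsg.IsCarterSubgroup (C.subgroupOf L) := by
  refine ⟨?_, ?_⟩
  · haveI := hC.1
    exact Group.nilpotent_of_mulEquiv (Subgroup.subgroupOfEquivOfLe h).symm
  · rw [← Subgroup.subgroupOf_normalizer_eq h, hC.2]

theorem isCarter_conj {C : Subgroup G} (hC : Cfsg.IsCarterSubgroup C) (g : G) :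
    Cfsg.IsCarterSubgroup (MulAut.conj g • C) := by
  refine ⟨?_, by rw [normalizer_conj_smul, hC.2]⟩
  rw [conj_smul_eq_map]
  exact isNilpotent_map_subgroup C _ hC.1

/-- A surjective image of a Carter subgroup is one, given conjugacy inside `C ⊔ ker f`. -/
theorem isCarter_map_of_conj {Q : Type*} [Group Q] {C : Subgroup G} (hC : Cfsg.IsCarterSubgroup C)
    {f : G →* Q} (hf : Function.Surjective f)
    (hconj : ∀ C' D' : Subgroup ↥(C ⊔ f.ker), Cfsg.IsCarterSubgroup C' →
      Cfsg.IsCarterSubgroup D' → ∃ g : ↥(C ⊔ f.ker), MulAut.conj g • C' = D') :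
    Cfsg.IsCarterSubgroup (C.map f) := by
  refine ⟨isNilpotent_map_subgroup C f hC.1, ?_⟩
  apply Subgroup.comap_injective hf
  rw [Subgroup.comap_normalizer_eq_of_surjective _ hf, Subgroup.comap_map_eq]
  refine le_antisymm ?_ Subgroup.le_normalizer
  intro x hx
  have hxL : MulAut.conj x • (C ⊔ f.ker) = C ⊔ f.ker := Subgroup.mem_normalizer_iff_map_conj_eq.1 hx
  have hle : MulAut.conj x • C ≤ C ⊔ f.ker :=
    le_trans (by rw [Subgroup.pointwise_smul_le_pointwise_smul_iff]; exact le_sup_left) hxL.le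
  obtain ⟨u, hu⟩ := hconj _ _ (isCarter_subgroupOf (isCarter_conj hC x) hle)
    (isCarter_subgroupOf hC le_sup_left)
  have hu' := conj_eq_of_subgroupOf hle le_sup_left u hu
  rw [← mul_smul, ← map_mul] at hu'
  have h1 : (u : G) * x ∈ C := by
    exact hC.2.le (Subgroup.mem_normalizer_iff_map_conj_eq.2 hu')
  have h2 := mul_mem (inv_mem u.2) ((le_sup_left : C ≤ C ⊔ f.ker) h1)
  rwa [inv_mul_cancel_left] at h2

/-- The index of a supplement of a normal subgroup divides its order. -/
theorem index_dvd_card_of_sup_eq_top {C N : Subgroup G} [N.Normal] (h : C ⊔ N = ⊤) :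
    C.index ∣ Nat.card N := by
  have h1 : C.map (QuotientGroup.mk' N) = ⊤ := by
    rw [← Subgroup.map_comap_eq_self_of_surjective (QuotientGroup.mk'_surjective N) ⊤,
      Subgroup.comap_top, ← h, Subgroup.map_sup, (Subgroup.map_eq_bot_iff N).2 (by rw [QuotientGroup.ker_mk']),
      sup_bot_eq]
  have h2 := C.card_map_dvd (QuotientGroup.mk' N)
  rw [h1, Subgroup.card_top] at h2
  refine Nat.dvd_of_mul_dvd_mul_left (Nat.card_pos (α := C)) ?_
  rw [C.card_mul_index, Subgroup.card_eq_card_quotient_mul_card_subgroup N]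
  exact Nat.mul_dvd_mul_right h2 _

/-- A subgroup of order prime to `p` and `p`-power index has the exact index. -/
theorem index_eq_factorization {p k : ℕ} (hp : p.Prime) {H : Subgroup G}
    (hH : ¬ p ∣ Nat.card H) (hk : H.index ∣ p ^ k) :
    H.index = p ^ (Nat.card G).factorization p := by
  obtain ⟨j, -, hj⟩ := (Nat.dvd_prime_pow hp).1 hk
  rw [hj]
  congr 1
  have h1 := H.card_mul_index
  rw [hj] at h1
  rw [← h1, Nat.factorization_mul Nat.card_pos.ne' (pow_pos hp.pos _).ne', Finsupp.add_apply,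
    Nat.factorization_eq_zero_of_not_dvd hH, hp.factorization_pow, Finsupp.single_eq_same, zero_add]

/-- The `p'`-part of a nilpotent subgroup. -/
theorem exists_primeTo_part {p : ℕ} (hp : p.Prime) {C : Subgroup G} (hC : Group.IsNilpotent C) :
    ∃ H ≤ C, ¬ p ∣ Nat.card H ∧ (∃ k, H.relIndex C ∣ p ^ k) ∧
      ∀ x ∈ C, (orderOf x).Coprime p → x ∈ H := by
  haveI := hC
  obtain ⟨K, hK⟩ := exists_complementSystem (G := C)
  have hr : (((K ⟨p, hp⟩).map C.subtype)).relIndex C = (K ⟨p, hp⟩).index := by
    show (((K ⟨p, hp⟩).map C.subtype).subgroupOf C).index = _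
    rw [Subgroup.subgroupOf, Subgroup.comap_map_eq_self_of_injective C.subtype_injective]
  refine ⟨_, Subgroup.map_subtype_le _, ?_, ⟨_, dvd_of_eq (hr.trans (hK ⟨p, hp⟩))⟩, ?_⟩
  · rw [Subgroup.card_subtype]
    exact complementSystem_not_dvd hK ⟨p, hp⟩
  · exact fun x hx hxp => mem_of_nilpotent_of_relIndex hp hC
      (dvd_of_eq (hr.trans (hK ⟨p, hp⟩))) hx hxp

/-- A Carter subgroup containing a `p'`-subgroup of `p`-power index is its normalizer. -/
theorem normalizer_eq_carter {p k : ℕ} (hp : p.Prime) {C H : Subgroup G}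
    (hC : Cfsg.IsCarterSubgroup C) (hHC : H ≤ C) (hH : ¬ p ∣ Nat.card H) (hk : H.index ∣ p ^ k) :
    Subgroup.normalizer (H : Set G) = C := by
  have hCM : C ≤ Subgroup.normalizer (H : Set G) := le_normalizer_of_forall_conj_mem fun x hx y hy =>
    mem_of_nilpotent_of_relIndex hp hC.1 ((Subgroup.relIndex_dvd_index_of_le hHC).trans hk)
      (mul_mem (mul_mem hx (hHC hy)) (inv_mem hx))
      (by rw [orderOf_conj]; exact (hp.coprime_iff_not_dvd.2 fun h => hH (h.trans (H.orderOf_dvd_natCard hy))).symm)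
  set M := Subgroup.normalizer (H : Set G) with hM
  refine le_antisymm ?_ hCM
  haveI hn : (H.subgroupOf M).Normal :=
    (Subgroup.normal_subgroupOf_iff_le_normalizer Subgroup.le_normalizer).2 le_rfl
  obtain ⟨j, -, hj⟩ := (Nat.dvd_prime_pow hp).1
    ((Subgroup.relIndex_dvd_index_of_le (Subgroup.le_normalizer (H := H))).trans hk)
  haveI := Fact.mk hp
  have hpg : IsPGroup p (M ⧸ H.subgroupOf M) := IsPGroup.of_card (n := j) hj
  haveI := hpg.isNilpotent
  set f := QuotientGroup.mk' (H.subgroupOf M) with hf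
  have hcm : ((C.subgroupOf M).map f).comap f = C.subgroupOf M := by
    rw [Subgroup.comap_map_eq, QuotientGroup.ker_mk', sup_eq_left]
    exact Subgroup.comap_mono hHC
  have hself : Subgroup.normalizer (((C.subgroupOf M).map f : Subgroup _) : Set _) = (C.subgroupOf M).map f := by
    apply Subgroup.comap_injective (QuotientGroup.mk'_surjective (H.subgroupOf M))
    rw [Subgroup.comap_normalizer_eq_of_surjective _ (QuotientGroup.mk'_surjective _), hcm]
    exact (isCarter_subgroupOf hC hCM).2
  have htop := normalizerCondition_iff_only_full_group_self_normalizing.1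
    Group.normalizerCondition_of_isNilpotent _ hself
  rw [← Subgroup.subgroupOf_eq_top, ← hcm, htop, Subgroup.comap_top]

/-- Two Carter subgroups that supplement a normal `p`-subgroup are conjugate. -/
theorem exists_conj_carter_of_sup_eq_top [Group.IsSolvable G] {p k : ℕ} (hp : p.Prime)
    {N : Subgroup G} [N.Normal] (hN : Nat.card N = p ^ k) {C D : Subgroup G}
    (hC : Cfsg.IsCarterSubgroup C) (hD : Cfsg.IsCarterSubgroup D) (hCN : C ⊔ N = ⊤)
    (hDN : D ⊔ N = ⊤) : ∃ g : G, MulAut.conj g • C = D := by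
  have key : ∀ E : Subgroup G, Cfsg.IsCarterSubgroup E → E ⊔ N = ⊤ → ∃ H : Subgroup G,
      Subgroup.normalizer (H : Set G) = E ∧ H.index = p ^ (Nat.card G).factorization p ∧
        ¬ p ∣ Nat.card H := by
    intro E hE hEN
    obtain ⟨H, hHE, hH, ⟨a, ha⟩, -⟩ := exists_primeTo_part hp hE.1
    have hidx : H.index ∣ p ^ (a + k) := by
      rw [← Subgroup.relIndex_mul_index hHE, pow_add]
      exact mul_dvd_mul ha (hN ▸ index_dvd_card_of_sup_eq_top hEN)
    exact ⟨H, normalizer_eq_carter hp hE hHE hH hidx, index_eq_factorization hp hH hidx, hH⟩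
  obtain ⟨H, hHC, hHi, hH⟩ := key C hC hCN
  obtain ⟨H', hHD, hHi', -⟩ := key D hD hDN
  obtain ⟨g, hg⟩ := exists_conj_eq_of_hall H H'
    (by rw [hHi]; exact ((hp.coprime_iff_not_dvd.2 hH).symm).pow_right _)
    (Nat.eq_of_mul_eq_mul_right (pow_pos hp.pos ((Nat.card G).factorization p))
      (by rw [← hHi', H'.card_mul_index, hHi', ← hHi, H.card_mul_index]))
  exact ⟨g, by rw [← hHC, ← hHD, ← hg, normalizer_conj_smul]⟩

/-- Existence, when the quotient by a normal `p`-subgroup is nilpotent. -/
theorem exists_carter_of_nilpotent_quotient [Group.IsSolvable G] {p : ℕ} [Fact p.Prime]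
    (N : Subgroup G) [N.Normal] (hN : IsPGroup p N) [Group.IsNilpotent (G ⧸ N)] :
    ∃ C : Subgroup G, Cfsg.IsCarterSubgroup C := by
  have hp : p.Prime := Fact.out
  obtain ⟨K, hK⟩ := exists_complementSystem (G := G)
  set H := K ⟨p, hp⟩ with hHdef
  have hH : ¬ p ∣ Nat.card H := complementSystem_not_dvd hK ⟨p, hp⟩
  have hHi : H.index = p ^ (Nat.card G).factorization p := hK ⟨p, hp⟩
  set f := QuotientGroup.mk' N with hf
  have hfs := QuotientGroup.mk'_surjective N
  haveI hHmn : (H.map f).Normal := by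
    rw [← Subgroup.normalizer_eq_top_iff]
    refine top_le_iff.1 ?_
    rw [← systemNormalizer_eq_top_of_nilpotent (complementSystem_map hK N)]
    exact iInf_le _ (⟨p, hp⟩ : Nat.Primes)
  haveI hMn : (H ⊔ N).Normal := by
    have := hHmn.comap f
    rwa [Subgroup.comap_map_eq, QuotientGroup.ker_mk'] at this
  set C := Subgroup.normalizer (H : Set G) with hC
  have hHC : H ≤ C := Subgroup.le_normalizer
  have hfr := sup_normalizer_hall_eq_top (H ⊔ N) inferInstance H le_sup_left
    (((hp.coprime_iff_not_dvd.2 hH).symm.pow_right ((Nat.card G).factorization p)).coprime_dvd_right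
      ((Subgroup.relIndex_dvd_index_of_le le_sup_left).trans (dvd_of_eq hHi)))
  obtain ⟨S⟩ : Nonempty (Sylow p G) := inferInstance
  have hNS : N ≤ (S : Subgroup G) := hN.le_sylow_of_normal S
  haveI hSn : (S : Subgroup G).Normal := by
    have h1 : ((S.mapSurjective hfs : Sylow p (G ⧸ N)) : Subgroup (G ⧸ N)).Normal :=
      Sylow.normal_of_normalizerCondition Group.normalizerCondition_of_isNilpotent _
    rw [Sylow.coe_mapSurjective] at h1
    have h2 := h1.comap f
    rwa [Subgroup.comap_map_eq, QuotientGroup.ker_mk', sup_eq_left.2 hNS] at h2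
  have hSH : (S : Subgroup G) ⊔ H = ⊤ := by
    rw [← Subgroup.index_eq_one]
    refine Nat.eq_one_of_dvd_coprimes ?_ (Subgroup.index_dvd_of_le (le_sup_left (b := H)))
      ((Subgroup.index_dvd_of_le (le_sup_right (a := (S : Subgroup G)))).trans (dvd_of_eq hHi))
    exact ((hp.coprime_iff_not_dvd.2 S.not_dvd_index).symm).pow_right _
  refine ⟨C, ?_, ?_⟩
  · haveI : (H.subgroupOf C).Normal :=
      (Subgroup.normal_subgroupOf_iff_le_normalizer hHC).2 le_rfl
    haveI : ((S : Subgroup G).subgroupOf C).Normal := hSn.comap _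
    have htop : H.subgroupOf C ⊔ (S : Subgroup G).subgroupOf C = ⊤ := by
      rw [eq_top_iff]
      rintro ⟨c, hc⟩ -
      have hc' : c ∈ ((S : Subgroup G) ⊔ H : Subgroup G) := hSH ▸ Subgroup.mem_top c
      rw [← SetLike.mem_coe, Subgroup.normal_mul] at hc'
      obtain ⟨s, hs, h, hh, rfl⟩ := Set.mem_mul.1 hc'
      have hsC : s ∈ C := by
        have := mul_mem hc (inv_mem (hHC hh))
        rwa [mul_inv_cancel_right] at this
      rw [show (⟨s * h, hc⟩ : C) = ⟨s, hsC⟩ * ⟨h, hHC hh⟩ from rfl]
      exact mul_mem (Subgroup.mem_sup_right hs) (Subgroup.mem_sup_left hh)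
    have hinj : Function.Injective (f.comp H.subtype) := by
      rw [injective_iff_map_eq_one]
      rintro ⟨x, hx⟩ hx1
      have hxN : x ∈ N := by
        rw [← QuotientGroup.ker_mk' N]
        exact hx1
      have hd : Disjoint H (S : Subgroup G) := by
        refine disjoint_of_coprime_card ?_
        obtain ⟨a, ha⟩ := IsPGroup.iff_card.1 S.isPGroup'
        rw [ha]
        exact ((hp.coprime_iff_not_dvd.2 hH).symm).pow_right _
      exact Subtype.ext (Subgroup.disjoint_def.1 hd hx (hNS hxN))
    have hHn : Group.IsNilpotent H :=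
      Group.nilpotent_of_mulEquiv (MonoidHom.ofInjective hinj).symm
    have h1 : Group.IsNilpotent (H.subgroupOf C) :=
      haveI := hHn
      Group.nilpotent_of_mulEquiv (Subgroup.subgroupOfEquivOfLe hHC).symm
    have h2 : Group.IsNilpotent ((S : Subgroup G).subgroupOf C) :=
      (S.isPGroup'.comap_of_injective C.subtype C.subtype_injective).isNilpotent
    have h3 := CfsgLib.Fitting.isNilpotent_sup _ _ h1 h2
    rw [htop] at h3
    haveI := h3
    exact Group.nilpotent_of_mulEquiv Subgroup.topEquiv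
  · refine le_antisymm ?_ Subgroup.le_normalizer
    refine le_normalizer_of_forall_conj_mem fun x hx y hy => ?_
    exact mem_of_normalizes_of_relIndex hp le_rfl ((Subgroup.relIndex_dvd_index_of_le hHC).trans (dvd_of_eq hHi))
      ((Subgroup.mem_normalizer_iff.1 hx y).1 (hHC hy))
      (by rw [orderOf_conj]; exact (hp.coprime_iff_not_dvd.2 fun h => hH (h.trans (H.orderOf_dvd_natCard hy))).symm)

private theorem carter_aux.{u} (n : ℕ) : ∀ (G : Type u) [Group G] [Finite G] [Group.IsSolvable G],
    Nat.card G = n → (∃ C : Subgroup G, Cfsg.IsCarterSubgroup C) ∧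
      ∀ C D : Subgroup G, Cfsg.IsCarterSubgroup C → Cfsg.IsCarterSubgroup D →
        ∃ g : G, MulAut.conj g • C = D := by
  induction n using Nat.strong_induction_on with
  | _ n ih =>
  intro G _ _ _ hn
  by_cases hG : Group.IsNilpotent G
  · refine ⟨⟨⊤, isCarter_top⟩, fun C D hC hD => ⟨1, ?_⟩⟩
    rw [carter_eq_top hC, carter_eq_top hD, map_one, one_smul]
  haveI : Nontrivial G := by
    by_contra h
    rw [not_nontrivial_iff_subsingleton] at h
    exact hG inferInstance
  obtain ⟨N, p, k, hNn, hN, -, -, hp, -, hNc, -⟩ := exists_minimal_normal_of_solvable (G := G)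
  haveI := Fact.mk hp
  set f := QuotientGroup.mk' N with hf
  have hfs := QuotientGroup.mk'_surjective N
  have hq := ih _ (hn ▸ card_quotient_lt N hN) (G ⧸ N) rfl
  have hsub : ∀ L : Subgroup G, L ≠ ⊤ → Nat.card L < n := fun L hL =>
    hn ▸ lt_of_le_of_ne L.card_le_card_group fun h => hL (L.eq_top_of_card_eq h)
  refine ⟨?_, ?_⟩
  · obtain ⟨Cb, hCb⟩ := hq.1
    by_cases hL : Cb.comap f = ⊤
    · have : Cb = ⊤ := by
        rw [← Subgroup.map_comap_eq_self_of_surjective hfs Cb, hL, Subgroup.map_top_of_surjective f hfs]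
      haveI : Group.IsNilpotent (G ⧸ N) := by
        haveI hnil : Group.IsNilpotent (⊤ : Subgroup (G ⧸ N)) := this ▸ hCb.1
        exact Group.nilpotent_of_mulEquiv Subgroup.topEquiv
      exact exists_carter_of_nilpotent_quotient N (IsPGroup.of_card hNc)
    · have hLn : Nat.card (Cb.comap f) < n := hsub _ hL
      obtain ⟨C, hC⟩ := (ih _ hLn (Cb.comap f) rfl).1
      refine ⟨C.map (Cb.comap f).subtype, isNilpotent_map_subgroup C _ hC.1, ?_⟩
      haveI := hCb.1
      let g := f.subgroupComap Cb
      have hgs : Function.Surjective g := f.subgroupComap_surjective_of_surjective Cb hfs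
      have hCg : C.map g = ⊤ := carter_eq_top (isCarter_map_of_conj hC hgs
        (ih _ (lt_of_le_of_lt (Subgroup.card_le_card_group _) hLn) _ rfl).2)
      have hCf : (C.map (Cb.comap f).subtype).map f = Cb := by
        rw [Subgroup.map_map]
        have : f.comp (Cb.comap f).subtype = Cb.subtype.comp g := rfl
        rw [this, ← Subgroup.map_map, hCg, ← MonoidHom.range_eq_map, Subgroup.range_subtype]
      refine le_antisymm ?_ Subgroup.le_normalizer
      intro x hx
      have hxL : x ∈ Cb.comap f := by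
        rw [Subgroup.mem_comap, ← hCb.2, ← hCf]
        exact Subgroup.le_normalizer_map f (Subgroup.mem_map_of_mem f hx)
      have h1 : (⟨x, hxL⟩ : Cb.comap f) ∈ (Subgroup.normalizer
          ((C.map (Cb.comap f).subtype : Subgroup G) : Set G)).subgroupOf (Cb.comap f) := hx
      rw [Subgroup.subgroupOf_normalizer_eq (Subgroup.map_subtype_le C)] at h1
      rw [Subgroup.subgroupOf, Subgroup.comap_map_eq_self_of_injective (Subgroup.subtype_injective _), hC.2] at h1
      exact Subgroup.mem_map_of_mem _ h1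
  · intro C D hC hD
    have hmap : ∀ E : Subgroup G, Cfsg.IsCarterSubgroup E → Cfsg.IsCarterSubgroup (E.map f) := by
      intro E hE
      by_cases hEN : E ⊔ N = ⊤
      · have htop : E.map f = ⊤ := by
          apply Subgroup.comap_injective hfs
          rw [Subgroup.comap_map_eq, QuotientGroup.ker_mk', hEN, Subgroup.comap_top]
        rw [htop]
        exact ⟨htop ▸ isNilpotent_map_subgroup E f hE.1, Subgroup.normalizer_eq_top _⟩
      · refine isCarter_map_of_conj hE hfs (ih _ ?_ _ rfl).2
        rw [QuotientGroup.ker_mk']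
        exact hsub _ hEN
    obtain ⟨gb, hgb⟩ := hq.2 _ _ (hmap C hC) (hmap D hD)
    obtain ⟨g, rfl⟩ := hfs gb
    rw [← map_conj_smul] at hgb
    have hsup : MulAut.conj g • C ⊔ N = D ⊔ N := by
      have := congrArg (Subgroup.comap f) hgb
      rwa [Subgroup.comap_map_eq, Subgroup.comap_map_eq, QuotientGroup.ker_mk'] at this
    by_cases hDN : D ⊔ N = ⊤
    · obtain ⟨u, hu⟩ := exists_conj_carter_of_sup_eq_top hp hNc (isCarter_conj hC g) hD
        (hsup.trans hDN) hDN
      exact ⟨u * g, by rw [map_mul, mul_smul]; exact hu⟩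
    · have hle : MulAut.conj g • C ≤ D ⊔ N := hsup ▸ le_sup_left
      obtain ⟨u, hu⟩ := (ih _ (hsub _ hDN) ↥(D ⊔ N) rfl).2 _ _
        (isCarter_subgroupOf (isCarter_conj hC g) hle) (isCarter_subgroupOf hD le_sup_left)
      exact ⟨(u : G) * g, by rw [map_mul, mul_smul]; exact conj_eq_of_subgroupOf hle le_sup_left u hu⟩

/-- Carter subgroups exist. -/
theorem exists_carter [Group.IsSolvable G] : ∃ C : Subgroup G, Cfsg.IsCarterSubgroup C :=
  (carter_aux _ G rfl).1

/-- Carter subgroups are conjugate. -/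
theorem exists_conj_carter [Group.IsSolvable G] {C D : Subgroup G} (hC : Cfsg.IsCarterSubgroup C)
    (hD : Cfsg.IsCarterSubgroup D) : ∃ g : G, MulAut.conj g • C = D :=
  (carter_aux _ G rfl).2 C D hC hD

/-- Surjective images of Carter subgroups are Carter subgroups. -/
theorem isCarter_map [Group.IsSolvable G] {Q : Type*} [Group Q] {C : Subgroup G}
    (hC : Cfsg.IsCarterSubgroup C) {f : G →* Q} (hf : Function.Surjective f) :
    Cfsg.IsCarterSubgroup (C.map f) :=
  isCarter_map_of_conj hC hf (carter_aux _ ↥(C ⊔ f.ker) rfl).2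

/-- An element of prime-to-`r` order in an image lifts to one in the subgroup. -/
theorem exists_lift_coprime {Q : Type*} [Group Q] {r : ℕ} (hr : r.Prime) (f : G →* Q)
    {C : Subgroup G} {c : G} (hc : c ∈ C) (h : (orderOf (f c)).Coprime r) :
    ∃ c' ∈ C, (orderOf c').Coprime r ∧ f c' = f c := by
  set a := (orderOf c).factorization r
  obtain ⟨m, hm⟩ := exists_pow_eq_self_of_coprime (x := f c) (Nat.Coprime.pow_left a h.symm)
  refine ⟨(c ^ r ^ a) ^ m, pow_mem (pow_mem hc _) _, ?_, by rw [map_pow, map_pow, hm]⟩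
  refine Nat.Coprime.coprime_dvd_left (orderOf_pow_dvd m) ?_
  rw [orderOf_pow' _ (pow_pos hr.pos _).ne', Nat.gcd_eq_right (Nat.ordProj_dvd _ _)]
  exact (Nat.coprime_ordCompl hr (orderOf_pos c).ne').symm

private theorem reduce_aux.{u} (n : ℕ) : ∀ (G : Type u) [Group G] [Finite G] [Group.IsSolvable G],
    Nat.card G = n → ∀ (K : Nat.Primes → Subgroup G) (C : Subgroup G),
      Cfsg.IsComplementSystem K → Cfsg.IsCarterSubgroup C →
      (∀ r : Nat.Primes, ∀ x ∈ C, (orderOf x).Coprime r → x ∈ K r) →
      Cfsg.systemNormalizer K ≤ C := by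
  induction n using Nat.strong_induction_on with
  | _ n ih =>
  intro G _ _ _ hn K C hK hC hred
  by_cases hG : Group.IsNilpotent G
  · rw [carter_eq_top hC]; exact le_top
  haveI : Nontrivial G := by
    by_contra h
    rw [not_nontrivial_iff_subsingleton] at h
    exact hG inferInstance
  obtain ⟨N, p, k, hNn, hN, -, -, hp, -, hNc, -⟩ := exists_minimal_normal_of_solvable (G := G)
  set L := C ⊔ N with hL
  have hCL : C ≤ L := le_sup_left
  have hnL : C.relIndex L ∣ p ^ k := by
    have h1 : C.subgroupOf L ⊔ N.subgroupOf L = ⊤ := by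
      rw [← Subgroup.subgroupOf_sup hCL le_sup_right]
      exact Subgroup.subgroupOf_self L
    have h2 := index_dvd_card_of_sup_eq_top h1
    rwa [Nat.card_congr (Subgroup.subgroupOfEquivOfLe (le_sup_right : N ≤ L)).toEquiv, hNc] at h2
  by_cases hLtop : L = ⊤
  · obtain ⟨H, hHC, hH, ⟨a, ha⟩, -⟩ := exists_primeTo_part hp hC.1
    have hidx : H.index ∣ p ^ (a + k) := by
      rw [← Subgroup.relIndex_mul_index hHC, pow_add]
      refine mul_dvd_mul ha ?_
      rwa [hLtop, Subgroup.relIndex_top_right] at hnL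
    have hHK : H ≤ K ⟨p, hp⟩ := fun x hx => hred _ x (hHC hx)
      (hp.coprime_iff_not_dvd.2 fun h => hH (h.trans (H.orderOf_dvd_natCard hx))).symm
    have heq : H = K ⟨p, hp⟩ := by
      refine Subgroup.eq_of_le_of_card_ge hHK (le_of_eq ?_)
      refine Nat.eq_of_mul_eq_mul_right (pow_pos hp.pos ((Nat.card G).factorization p)) ?_
      conv_rhs => rw [← index_eq_factorization hp hH hidx, H.card_mul_index]
      conv_lhs => rw [← hK ⟨p, hp⟩, (K ⟨p, hp⟩).card_mul_index]
    rw [← normalizer_eq_carter hp hC hHC hH hidx, heq]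
    exact iInf_le _ (⟨p, hp⟩ : Nat.Primes)
  set f := QuotientGroup.mk' N with hf
  have hfs := QuotientGroup.mk'_surjective N
  have hDL : Cfsg.systemNormalizer K ≤ L := by
    have h1 := ih _ (hn ▸ card_quotient_lt N hN) (G ⧸ N) rfl _ (C.map f) (complementSystem_map hK N)
      (isCarter_map hC hfs) (by
        rintro r _ ⟨c, hc, rfl⟩ hco
        obtain ⟨c', hc', hco', he⟩ := exists_lift_coprime r.2 f hc hco
        rw [← he]
        exact Subgroup.mem_map_of_mem f (hred r c' hc' hco'))
    rw [systemNormalizer_map hK N, Subgroup.map_le_iff_le_comap, Subgroup.comap_map_eq,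
      QuotientGroup.ker_mk'] at h1
    exact h1
  have hK' : Cfsg.IsComplementSystem (fun r => (K r).subgroupOf L) := by
    intro r
    have hnd : ¬ (r : ℕ) ∣ Nat.card ((K r).subgroupOf L) := fun h =>
      complementSystem_not_dvd hK r (h.trans (Subgroup.card_comap_dvd_of_injective (K r) L.subtype L.subtype_injective))
    obtain ⟨H, hHC, hH, ⟨a, ha⟩, -⟩ := exists_primeTo_part r.2 hC.1
    have hHK : H ≤ K r := fun x hx => hred r x (hHC hx)
      (r.2.coprime_iff_not_dvd.2 fun h => hH (h.trans (H.orderOf_dvd_natCard hx))).symm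
    show ((K r).subgroupOf L).index = _
    by_cases hrp : (r : ℕ) = p
    · refine index_eq_factorization r.2 hnd (k := a + k) ?_
      refine (Subgroup.relIndex_dvd_of_le_left L hHK).trans ?_
      rw [← Subgroup.relIndex_mul_relIndex H C L hHC hCL, pow_add]
      exact mul_dvd_mul ha (hrp ▸ hnL)
    · refine index_eq_factorization r.2 hnd (k := a) ?_
      have hNK : N ≤ K r := by
        rw [← Subgroup.relIndex_eq_one]
        refine Nat.eq_one_of_dvd_coprimes ?_ (hK r ▸ relIndex_dvd_index_right N (K r))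
          (hNc ▸ Subgroup.relIndex_dvd_card (K r) N)
        exact Nat.Coprime.pow _ _ ((Nat.coprime_primes r.2 hp).2 hrp)
      have hX : (H.map f).comap f ≤ K r := by
        rw [Subgroup.comap_map_eq, QuotientGroup.ker_mk']
        exact sup_le hHK hNK
      refine (Subgroup.relIndex_dvd_of_le_left L hX).trans ?_
      have hLC : L.map f = C.map f := by
        rw [hL, Subgroup.map_sup, (Subgroup.map_eq_bot_iff N).2 (by rw [QuotientGroup.ker_mk']), sup_bot_eq]
      rw [Subgroup.relIndex_comap, hLC, ← Subgroup.relIndex_comap]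
      exact (Subgroup.relIndex_dvd_of_le_left C (Subgroup.le_comap_map f H)).trans ha
  have hlt : Nat.card L < n :=
    hn ▸ lt_of_le_of_ne L.card_le_card_group fun h => hLtop (L.eq_top_of_card_eq h)
  have h2 := ih _ hlt L rfl _ (C.subgroupOf L) hK' (isCarter_subgroupOf hC hCL)
    (fun r x hx hco => hred r x hx (by rwa [Subgroup.orderOf_coe]))
  intro x hx
  refine h2 (x := ⟨x, hDL hx⟩) ?_
  rw [Cfsg.systemNormalizer, Subgroup.mem_iInf]
  intro r
  rw [Subgroup.mem_normalizer_iff]
  intro y
  exact Subgroup.mem_normalizer_iff.1 (Subgroup.mem_iInf.1 hx r) y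

/-- A system normalizer lies in any Carter subgroup into which the system reduces. -/
theorem systemNormalizer_le_carter [Group.IsSolvable G] {K : Nat.Primes → Subgroup G} {C : Subgroup G}
    (hK : Cfsg.IsComplementSystem K) (hC : Cfsg.IsCarterSubgroup C)
    (hred : ∀ r : Nat.Primes, ∀ x ∈ C, (orderOf x).Coprime r → x ∈ K r) :
    Cfsg.systemNormalizer K ≤ C :=
  reduce_aux _ G rfl K C hK hC hred

/-- Some complement system reduces into a given nilpotent subgroup. -/
theorem exists_complementSystem_reducing [Group.IsSolvable G] {C : Subgroup G}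
    (hC : Group.IsNilpotent C) : ∃ K : Nat.Primes → Subgroup G, Cfsg.IsComplementSystem K ∧
      ∀ r : Nat.Primes, ∀ x ∈ C, (orderOf x).Coprime r → x ∈ K r := by
  choose X hX hXnd _ hXm using fun r : Nat.Primes => exists_primeTo_part r.2 hC
  obtain ⟨K, hK, hle⟩ := exists_complementSystem_ge X hXnd
  exact ⟨K, hK, fun r x hx hco => hle r (hXm r x hx hco)⟩

end CfsgLib.Solvable
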